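import Mathlib

set_option autoImplicit false

/-! # helper82's farm Rud: counting lemmas for linear maps over `ZMod 2` -/

namespace Cfsg.Agent.Lib.Helper2.Rud

theorem card_eq_ker_mul_range {M M' : Type*} [AddCommGroup M] [Module (ZMod 2) M]
    [AddCommGroup M'] [Module (ZMod 2) M'] (f : M →ₗ[ZMod 2] M') :
    Nat.card M = Nat.card (LinearMap.ker f) * Nat.card (LinearMap.range f) := by
  rw [Submodule.card_eq_card_quotient_mul_card (LinearMap.ker f),
    Nat.card_congr f.quotKerEquivRange.toEquiv, mul_comm]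

theorem card_le_of_le {M : Type*} [AddCommGroup M] [Module (ZMod 2) M] [Finite M]
    {A B : Submodule (ZMod 2) M} (h : A ≤ B) : Nat.card A ≤ Nat.card B :=
  Nat.card_le_card_of_injective (Submodule.inclusion h) (Submodule.inclusion_injective h)

theorem zmod2_cases (c : ZMod 2) : c = 0 ∨ c = 1 := by
  revert c; decide

theorem zmod2_eq_one {c : ZMod 2} (h : c ≠ 0) : c = 1 := (zmod2_cases c).resolve_left h

theorem card_span_singleton_le {M : Type*} [AddCommGroup M] [Module (ZMod 2) M] [Finite M]
    (u : M) : Nat.card (Submodule.span (ZMod 2) {u}) ≤ 2 := by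
  have hs : Function.Surjective
      (fun c : ZMod 2 => (⟨c • u, Submodule.smul_mem _ c (Submodule.mem_span_singleton_self u)⟩ :
        Submodule.span (ZMod 2) {u})) := by
    rintro ⟨x, hx⟩
    obtain ⟨c, rfl⟩ := Submodule.mem_span_singleton.1 hx
    exact ⟨c, rfl⟩
  have := Nat.card_le_card_of_surjective _ hs
  rwa [Nat.card_zmod] at this

theorem mem_span_singleton_iff {M : Type*} [AddCommGroup M] [Module (ZMod 2) M] {u x : M} :
    x ∈ Submodule.span (ZMod 2) {u} ↔ x = 0 ∨ x = u := by
  rw [Submodule.mem_span_singleton]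
  constructor
  · rintro ⟨c, rfl⟩
    rcases zmod2_cases c with rfl | rfl
    · left; simp
    · right; simp
  · rintro (rfl | rfl)
    · exact ⟨0, by simp⟩
    · exact ⟨1, by simp⟩

end Cfsg.Agent.Lib.Helper2.Rud
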